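import Cfsg.Agent.Blocks.PRegular
import Cfsg.Agent.Blocks.Local
import Cfsg.Agent.Blocks.Basic
import Cfsg.Agent.Characters.Central

/-!
# Spherical functions and the principal block (helper854)

`mem_principalBlock` : `B ≤ G`, `∑ b, χ (g b) = |B| φ g` with `φ 1 = 1` and `φ` with values in the local ring; `P ≤ B` a
`p`-group whose centralizer has all its `p`-regular elements in `B`. Then `χ` is in the principal `p`-block.
-/

set_option autoImplicit false

open Cfsg Subgroup

namespace Cfsg.Agent.H854.SB.Sph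

open Cfsg.Agent.Blocks Cfsg.Agent.Blocks.Local

variable {G : Type*} [Group G] {p : ℕ} {M : Ideal AlgInt}

/-- the sum of an invariant function with values in the local ring, zero at the fixed points of a `p`-group -/
theorem sum_of_fixed {X : Type*} [Fintype X] {P : Type*} [Group P] [MulAction P X] (hM : IsPModular p M)
    (hP : IsPGroup p P) (f : X → ℂ) (hinv : ∀ (a : P) (x : X), f (a • x) = f x)
    (hloc : ∀ x, MemLocalRing M (f x)) (hfix : ∀ x, (∀ a : P, a • x = x) → f x = 0) :
    MemLocalIdeal M (∑ x, f x) := by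
  classical
  have hMp : M.IsPrime := isPrime_of_isPModular hM
  have hp : Fact p.Prime := ⟨hM.1⟩
  rw [← Finset.sum_fiberwise_of_maps_to (s := Finset.univ) (t := Finset.univ.image f) (g := f)
    (fun x _ => Finset.mem_image_of_mem f (Finset.mem_univ x))]
  refine memLocalIdeal_sum fun c hc => ?_
  obtain ⟨x₀, -, rfl⟩ := Finset.mem_image.1 hc
  have e1 : ∑ x ∈ Finset.univ.filter (fun x => f x = f x₀), f x =
      ((Finset.univ.filter fun x => f x = f x₀).card : ℂ) * f x₀ := by
    rw [Finset.sum_congr rfl fun x hx => (Finset.mem_filter.1 hx).2, Finset.sum_const, nsmul_eq_mul]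
  rw [e1]
  by_cases h0 : f x₀ = 0
  · rw [h0, mul_zero]
    exact memLocalIdeal_zero
  refine memLocalIdeal_mul_right ((memLocalIdeal_natCast_iff hM _).2 ?_) (hloc x₀)
  let S : SubMulAction P X :=
    { carrier := {x | f x = f x₀}
      smul_mem' := fun a x hx => by
        show f (a • x) = f x₀
        rw [hinv]; exact hx }
  have h1 := hP.card_modEq_card_fixedPoints S
  have h2 : IsEmpty (MulAction.fixedPoints P S) := by
    constructor
    rintro ⟨⟨x, hx⟩, hxf⟩
    apply h0
    have hx' : f x = f x₀ := hx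
    rw [← hx']
    exact hfix x fun a => congrArg Subtype.val (hxf a)
  have h4 : Nat.card (MulAction.fixedPoints P S) = 0 := Nat.card_of_isEmpty
  rw [h4] at h1
  have h3 : (Finset.univ.filter fun x => f x = f x₀).card = Nat.card S := by
    rw [← Fintype.card_subtype, ← Nat.card_eq_fintype_card]
    rfl
  rw [h3]
  exact (Nat.modEq_zero_iff_dvd).1 h1

open Classical in
/-- **the criterion** -/
theorem mem_principalBlock [Finite G] (hM : IsPModular p M) (χ : IrrCharacter G) (B : Subgroup G) [Fintype B] (φ : G → ℂ)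
    (hφ : ∀ g, ∑ b : B, (χ : G → ℂ) (g * b) = Nat.card B * φ g) (h1 : φ 1 = 1)
    (hloc : ∀ g, MemLocalRing M (φ g)) {P : Subgroup G} (hP : IsPGroup p P) (hPB : P ≤ B)
    (hC : ∀ x ∈ centralizer (P : Set G), ¬ p ∣ orderOf x → x ∈ B) : χ ∈ principalBlock M G := by
  have hMp : M.IsPrime := isPrime_of_isPModular hM
  have := Fintype.ofFinite G
  have hpF : Fact p.Prime := ⟨hM.1⟩
  show SameBlock M (fun _ : G => (1 : ℂ)) (χ : G → ℂ)
  refine Blocks.PRegular.sameBlock_of_isPRegular hM Cfsg.Agent.Blocks.Basic.isIrrCharacter_one χ.2 fun g hg => ?_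
  have hB0 : ((Nat.card B : ℕ) : ℂ) ≠ 0 := by exact_mod_cast Nat.card_pos.ne'
  have hχ0 : (χ : G → ℂ) 1 ≠ 0 := Cfsg.Agent.Blocks.Basic.irr_one_ne_zero χ.2
  -- `φ` on `B`
  have hφB : ∀ b ∈ B, φ b = 1 := by
    intro b hb
    have e1 : ∑ c : B, (χ : G → ℂ) (b * c) = ∑ c : B, (χ : G → ℂ) (1 * c) := by
      rw [← Equiv.sum_comp (Equiv.mulLeft (⟨b, hb⟩ : B)) (fun c : B => (χ : G → ℂ) (1 * c))]
      refine Finset.sum_congr rfl fun c _ => ?_
      simp
    rw [hφ, hφ, h1] at e1
    exact mul_left_cancel₀ hB0 e1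
  have hφc : ∀ b ∈ B, ∀ x, φ (b * x * b⁻¹) = φ x := by
    intro b hb x
    have e1 : ∑ c : B, (χ : G → ℂ) (b * x * b⁻¹ * c) = ∑ c : B, (χ : G → ℂ) (x * c) := by
      rw [← Equiv.sum_comp (MulAut.conj (⟨b, hb⟩ : B)).toEquiv (fun c : B => (χ : G → ℂ) (b * x * b⁻¹ * c))]
      refine Finset.sum_congr rfl fun c _ => ?_
      have e2 : b * x * b⁻¹ * ((MulAut.conj (⟨b, hb⟩ : B)).toEquiv c : B) = b * (x * c) * b⁻¹ := by
        show b * x * b⁻¹ * (b * c * b⁻¹) = _
        group
      rw [e2, Cfsg.Agent.Blocks.Basic.irr_conj χ.2]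
    rw [hφ, hφ] at e1
    exact mul_left_cancel₀ hB0 e1
  -- the class of `g`
  let C : Set G := {x | IsConj g x}
  have hfC : Fintype C := Fintype.ofFinite _
  have hcard : ((centralizer ({g} : Set G)).index : ℂ) = Nat.card C := by
    congr 1
    exact (Cfsg.Agent.Blocks.Induced.ncard_conj_eq_index g).symm
  -- sums over the class are averages over the group
  have havg : ∀ F : G → ℂ, (Nat.card C : ℂ) * ∑ a : G, F (a * g * a⁻¹) = Nat.card G * ∑ x : C, F x := by
    intro F
    have e1 : ∀ x : C, ∑ a : G, (if a * g * a⁻¹ = x then (1 : ℂ) else 0) = Nat.card (centralizer ({g} : Set G)) := by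
      intro x
      obtain ⟨c, hc⟩ := isConj_iff.1 x.2
      rw [← Equiv.sum_comp (Equiv.mulLeft c), Finset.sum_boole]
      congr 1
      rw [Nat.card_eq_fintype_card, ← Fintype.card_coe]
      refine Fintype.card_congr (Equiv.subtypeEquivRight fun a => ?_)
      rw [Finset.mem_filter, mem_centralizer_singleton_iff]
      constructor
      · rintro ⟨-, h⟩
        have h' : c * a * g * (c * a)⁻¹ = c * g * c⁻¹ := by rw [hc]; exact h
        have h2 : c⁻¹ * (c * a * g * (c * a)⁻¹) * c * a = c⁻¹ * (c * g * c⁻¹) * c * a := by rw [h']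
        have e1 : c⁻¹ * (c * a * g * (c * a)⁻¹) * c * a = a * g := by group
        have e2 : c⁻¹ * (c * g * c⁻¹) * c * a = g * a := by group
        rw [e1, e2] at h2
        exact h2
      · intro h
        refine ⟨Finset.mem_univ _, ?_⟩
        show c * a * g * (c * a)⁻¹ = x
        rw [← hc, show c * a * g * (c * a)⁻¹ = c * (a * g) * a⁻¹ * c⁻¹ by group, h]
        group
    have e2 : ∑ a : G, F (a * g * a⁻¹) = ∑ x : C, (Nat.card (centralizer ({g} : Set G)) : ℂ) * F x := by
      have e3 : ∀ a : G, F (a * g * a⁻¹) = ∑ x : C, (if a * g * a⁻¹ = x then (1 : ℂ) else 0) * F x := by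
        intro a
        rw [Finset.sum_eq_single (⟨a * g * a⁻¹, isConj_iff.2 ⟨a, rfl⟩⟩ : C)]
        · simp
        · intro x _ hx
          rw [if_neg, zero_mul]
          intro h
          exact hx (Subtype.ext h.symm)
        · intro h
          exact absurd (Finset.mem_univ _) h
      rw [Finset.sum_congr rfl fun a _ => e3 a, Finset.sum_comm]
      refine Finset.sum_congr rfl fun x _ => ?_
      rw [← Finset.sum_mul, e1]
    rw [e2, ← Finset.mul_sum, ← mul_assoc]
    congr 1
    have e4 := (centralizer ({g} : Set G)).card_mul_index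
    rw [← e4, Nat.cast_mul, hcard, mul_comm]
  -- the central character
  have hcc : centralChar (χ : G → ℂ) g = ∑ x : C, φ x := by
    have e1 : ∑ b : B, ∑ a : G, (χ : G → ℂ) (a * g * a⁻¹ * b) =
        (Nat.card G : ℂ) * (χ : G → ℂ) g * (Nat.card B) / (χ : G → ℂ) 1 := by
      have e2 : ∀ b : B, ∑ a : G, (χ : G → ℂ) (a * g * a⁻¹ * b) =
          (Nat.card G : ℂ) * (χ : G → ℂ) g / (χ : G → ℂ) 1 * (χ : G → ℂ) (1 * b) := by
        intro b
        rw [Cfsg.Agent.Characters.Central.sum_char_conj_mul χ.2, one_mul]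
        ring
      rw [Finset.sum_congr rfl fun b _ => e2 b, ← Finset.mul_sum, hφ, h1]
      ring
    rw [Finset.sum_comm] at e1
    have e3 : ∑ a : G, ∑ b : B, (χ : G → ℂ) (a * g * a⁻¹ * b) = Nat.card B * ∑ a : G, φ (a * g * a⁻¹) := by
      rw [Finset.mul_sum]
      exact Finset.sum_congr rfl fun a _ => hφ _
    rw [e3] at e1
    have hG0 : ((Nat.card G : ℕ) : ℂ) ≠ 0 := by exact_mod_cast Nat.card_pos.ne'
    have e4 : ∑ a : G, φ (a * g * a⁻¹) = (Nat.card G : ℂ) * (χ : G → ℂ) g / (χ : G → ℂ) 1 := by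
      apply mul_left_cancel₀ hB0
      rw [e1]
      ring
    have e5 := havg φ
    rw [e4] at e5
    apply mul_left_cancel₀ hG0
    rw [← e5]
    unfold centralChar
    rw [hcard]
    ring
  have hc1 : centralChar (fun _ : G => (1 : ℂ)) g = ∑ _x : C, (1 : ℂ) := by
    unfold centralChar
    rw [hcard]
    simp
  rw [hc1, hcc, ← Finset.sum_sub_distrib]
  -- the action of `P`
  have hconj : ∀ (a : P) (x : C), (a : G) * x * (a : G)⁻¹ ∈ C := by
    intro a x
    exact IsConj.trans x.2 (isConj_iff.2 ⟨a, rfl⟩)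
  let _ : MulAction P C :=
    { smul := fun a x => ⟨(a : G) * x * (a : G)⁻¹, hconj a x⟩
      one_smul := fun x => Subtype.ext (by show ((1 : P) : G) * x * ((1 : P) : G)⁻¹ = x; simp)
      mul_smul := fun a b x => Subtype.ext (by
        show ((a * b : P) : G) * x * ((a * b : P) : G)⁻¹ = (a : G) * ((b : G) * x * (b : G)⁻¹) * (a : G)⁻¹
        rw [Subgroup.coe_mul]; group) }
  have hsm : ∀ (a : P) (x : C), ((a • x : C) : G) = (a : G) * x * (a : G)⁻¹ := fun _ _ => rfl
  refine sum_of_fixed hM hP (fun x : C => (1 : ℂ) - φ x) ?_ ?_ ?_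
  · intro a x
    show (1 : ℂ) - φ ((a • x : C) : G) = 1 - φ x
    rw [hsm, hφc _ (hPB a.2)]
  · intro x
    exact memLocalRing_sub memLocalRing_one (hloc x)
  · intro x hx
    have hxC : (x : G) ∈ centralizer (P : Set G) := by
      rw [mem_centralizer_iff]
      intro a ha
      have h2 := congrArg Subtype.val (hx ⟨a, ha⟩)
      rw [hsm] at h2
      have h3 : a * (x : G) * a⁻¹ = x := h2
      rw [mul_inv_eq_iff_eq_mul] at h3
      exact h3
    have hxo : ¬ p ∣ orderOf (x : G) := by
      obtain ⟨c, hc⟩ := isConj_iff.1 x.2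
      rw [← hc, show c * g * c⁻¹ = MulAut.conj c g from rfl, MulEquiv.orderOf_eq]
      exact hg
    show (1 : ℂ) - φ x = 0
    rw [hφB _ (hC _ hxC hxo), sub_self]

end Cfsg.Agent.H854.SB.Sph
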